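import Cfsg.Agent.H635.Cod.Deg
import Cfsg.Agent.H704.Bridge
import Cfsg.Agent.H424.DegTools

/-!
# S4795, T-F1: alternating groups (helper635)

`exists_alt` : a degree of an alternating group from a partition (hook formula).
-/

set_option autoImplicit false

universe u v

namespace Cfsg.Agent.H635.Cod

open Cfsg Cfsg.Agent.H66.Cod Cfsg.Agent.Characters.Core Cfsg.Agent.H614 Cfsg.Agent.H704

theorem exists_sym {n m D : ℕ} (β : Fin m → ℕ) (hβ : StrictMono β) (hs : ∑ i, β i = n + ∑ i : Fin m, (i : ℕ))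
    (hD : D * hookProd (lam m β) = n.factorial) : D ∈ charDegrees (Equiv.Perm (Fin n)) := by
  rw [Cfsg.Agent.H424.DegTools.mem_charDegrees]
  refine ⟨ch (Fin n) β, isIrr_ch hβ (by rw [Fintype.card_fin]; exact hs), ?_⟩
  have h1 := FM_mul_hookProd (n := n) hβ hs
  have h2 : FM (Multiset.replicate n 1) β = (D : ℤ) := by
    have h3 : 0 < hookProd (lam m β) := hookProd_pos (dec_lam m β hβ)
    have h4 : (hookProd (lam m β) : ℤ) ≠ 0 := by exact_mod_cast h3.ne'
    apply mul_right_cancel₀ h4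
    rw [h1]
    exact_mod_cast hD.symm
  rw [ch_apply, ty_one, Fintype.card_fin, h2]
  simp

theorem exists_alt {n m D : ℕ} (β : Fin m → ℕ) (hn : 2 ≤ n) (hβ : StrictMono β)
    (hs : ∑ i, β i = n + ∑ i : Fin m, (i : ℕ)) (hD : D * hookProd (lam m β) = n.factorial) (h3 : 3 ≤ D) :
    ∃ d, NDeg ↥(alternatingGroup (Fin n)) d ∧ (D = d ∨ D = 2 * d) := by
  obtain ⟨c, ⟨χ, hχ⟩, h1, h2⟩ := Cfsg.Agent.H424.DegTools.clifford_down (alternatingGroup (Fin n)) (exists_sym β hβ hs hD)
  have hnt : Nontrivial (Fin n) := Fin.nontrivial_iff_two_le.2 hn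
  rw [alternatingGroup.index_eq_two] at h2
  obtain ⟨e, he⟩ := h1
  have hc : 0 < c := by
    rcases Nat.eq_zero_or_pos c with h | h
    · subst h
      rw [zero_mul] at he
      omega
    · exact h
  rw [he, Nat.mul_div_cancel_left e hc] at h2
  have h4 : e = 1 ∨ e = 2 := (Nat.dvd_prime Nat.prime_two).1 h2
  refine ⟨c, ?_, ?_⟩
  · rw [← hχ]
    refine ndeg_of_ne ?_
    rw [hχ]
    rcases h4 with rfl | rfl <;> omega
  · rcases h4 with rfl | rfl
    · left; omega
    · right; omega

theorem nonab_of_cov {S : Type u} {H : Type v} [Group S] [Group H] [Finite S] [Finite H] [IsSimpleGroup S]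
    [IsSimpleGroup H] {k : ℕ} (h : Cov S H k) (hS : ¬ (Nat.card S).Prime) : ¬ ∀ a b : H, a * b = b * a := by
  intro hab
  let _ : CommGroup H := { (inferInstance : Group H) with mul_comm := hab }
  have h4 : (Nat.card H).Prime := IsSimpleGroup.prime_card
  rw [h.card] at h4
  rcases Nat.prime_mul_iff.1 h4 with ⟨-, h5⟩ | ⟨h5, -⟩
  · have : Nontrivial S := inferInstance
    have h6 := Finite.one_lt_card (α := S)
    omega
  · exact hS h5

theorem alt_core {S : Type u} {H : Type v} [Group S] [Group H] [Finite S] [Finite H] [IsSimpleGroup S]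
    [IsSimpleGroup H] {k n : ℕ} (h : Cov S H k) (e : S ≃* ↥(alternatingGroup (Fin n))) (hn : 5 ≤ n) {m D : ℕ}
    (β : Fin m → ℕ) (hβ : StrictMono β) (hs : ∑ i, β i = n + ∑ i : Fin m, (i : ℕ))
    (hD : D * hookProd (lam m β) = n.factorial) (h3 : 3 ≤ D)
    (hk : ∀ d, (D = d ∨ D = 2 * d) → n.factorial ≤ 2 * (k * d ^ 2)) : False := by
  have hnt : Nontrivial (Fin n) := Fin.nontrivial_iff_two_le.2 (by omega)
  have hc : 2 * Nat.card S = n.factorial := by
    rw [Nat.card_congr e.toEquiv, Nat.card_eq_fintype_card, two_mul_card_alternatingGroup, Fintype.card_perm,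
      Fintype.card_fin]
  have hL := nonab_of_cov h (by
    intro hp
    have h4 : (5 : ℕ) ∣ 2 * Nat.card S := by rw [hc]; exact (Nat.prime_five.dvd_factorial).2 hn
    have h5 : (3 : ℕ) ∣ 2 * Nat.card S := by rw [hc]; exact (Nat.prime_three.dvd_factorial).2 (by omega)
    have h6 : (5 : ℕ) ∣ Nat.card S := (Nat.Coprime.dvd_of_dvd_mul_left (by norm_num) h4)
    have h7 : (3 : ℕ) ∣ Nat.card S := (Nat.Coprime.dvd_of_dvd_mul_left (by norm_num) h5)
    have h8 := (Nat.prime_dvd_prime_iff_eq Nat.prime_five hp).1 h6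
    have h9 := (Nat.prime_dvd_prime_iff_eq Nat.prime_three hp).1 h7
    omega)
  obtain ⟨d, h4, h5⟩ := exists_alt β (by omega) hβ hs hD h3
  have h6 := h.lt hL (NDeg.congr e h4)
  have h7 := hk d h5
  omega

/-- **T-F1.** -/
theorem alt_kill {S : Type u} {H : Type v} [Group S] [Group H] [Finite S] [Finite H] [IsSimpleGroup S]
    [IsSimpleGroup H] {k m : ℕ} (h : Cov S H k) (e : Nonempty (S ≃* alternatingGroup (Fin m)))
    (hmk : (m = 7 ∧ k = 8) ∨ (m = 9 ∧ k = 8) ∨ (m = 9 ∧ k = 18) ∨ (m = 10 ∧ k = 96) ∨ (m = 8 ∧ k = 22) ∨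
      (m = 8 ∧ k = 30) ∨ (m = 11 ∧ k = 45) ∨ (m = 13 ∧ k = 144)) : False := by
  obtain ⟨e⟩ := e
  rcases hmk with ⟨rfl, rfl⟩ | ⟨rfl, rfl⟩ | ⟨rfl, rfl⟩ | ⟨rfl, rfl⟩ | ⟨rfl, rfl⟩ | ⟨rfl, rfl⟩ | ⟨rfl, rfl⟩ | ⟨rfl, rfl⟩
  · refine alt_core h e (by norm_num) (D := 35) ![1, 3, 6] (by decide) (by decide) (by decide) (by norm_num) ?_
    intro d hd
    have : d = 35 := by omega
    subst this
    decide
  · refine alt_core h e (by norm_num) (D := 189) ![1, 2, 4, 8] (by decide) (by decide) (by decide) (by norm_num) ?_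
    intro d hd
    have : d = 189 := by omega
    subst this
    decide
  · refine alt_core h e (by norm_num) (D := 189) ![1, 2, 4, 8] (by decide) (by decide) (by decide) (by norm_num) ?_
    intro d hd
    have : d = 189 := by omega
    subst this
    decide
  · refine alt_core h e (by norm_num) (D := 768) ![1, 3, 5, 7] (by decide) (by decide) (by decide) (by norm_num) ?_
    intro d hd
    rcases (show d = 768 ∨ d = 384 by omega) with rfl | rfl <;> decide
  · refine alt_core h e (by norm_num) (D := 90) ![1, 2, 4, 7] (by decide) (by decide) (by decide) (by norm_num) ?_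
    intro d hd
    rcases (show d = 90 ∨ d = 45 by omega) with rfl | rfl <;> decide
  · refine alt_core h e (by norm_num) (D := 90) ![1, 2, 4, 7] (by decide) (by decide) (by decide) (by norm_num) ?_
    intro d hd
    rcases (show d = 90 ∨ d = 45 by omega) with rfl | rfl <;> decide
  · refine alt_core h e (by norm_num) (D := 2310) ![1, 3, 5, 8] (by decide) (by decide) (by decide) (by norm_num) ?_
    intro d hd
    rcases (show d = 2310 ∨ d = 1155 by omega) with rfl | rfl <;> decide
  · refine alt_core h e (by norm_num) (D := 21450) ![1, 2, 4, 7, 9] (by decide) (by decide) (by decide) (by norm_num) ?_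
    intro d hd
    rcases (show d = 21450 ∨ d = 10725 by omega) with rfl | rfl <;> decide

end Cfsg.Agent.H635.Cod
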