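import Cfsg.Agent.H635.Cod.MTwelve
import Cfsg.Agent.H66.Cod.Base
import Cfsg.Agent.H221.TwFSplit
import Cfsg.Agent.NotCT.Orders
import Cfsg.Agent.S1624
import Cfsg.Agent.S1680
import Cfsg.Agent.S1687
import Cfsg.Agent.S4503

/-!
# Degrees of some sporadic groups (helper635)
-/

set_option autoImplicit false

namespace Cfsg.Agent.H635.Cod

open Cfsg Cfsg.Agent.H66.Cod Cfsg.Agent.H690.Spor.RankThree Cfsg.Agent.Characters.Core

universe u

theorem NDeg.congr {S T : Type*} [Group S] [Group T] (e : S ≃* T) {d : ℕ} (h : NDeg T d) : NDeg S d := by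
  obtain ⟨χ, h1, h2⟩ := h
  refine ⟨⟨(χ : T → ℂ) ∘ e.toMonoidHom, isIrr_comp e.toMonoidHom e.surjective χ.2⟩, ?_, ?_⟩
  · intro h3
    apply h1
    funext x
    have h4 := congrFun h3 (e.symm x)
    simpa using h4
  · rw [← h2]
    unfold charDegree
    show Nat.floor (((χ : T → ℂ) ∘ e.toMonoidHom) 1).re = _
    rw [Function.comp_apply, map_one]

theorem ndeg_of_ne {S : Type*} [Group S] {χ : IrrCharacter S} (h : charDegree (χ : S → ℂ) ≠ 1) :
    NDeg S (charDegree (χ : S → ℂ)) := by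
  refine ⟨χ, ?_, rfl⟩
  intro h1
  apply h
  rw [h1]
  exact H495.Cod.charDegree_one

/-- a rank 3 action gives a degree of at least half of the number of points -/
theorem exists_of_r3 {G X : Type*} [Group G] [Finite G] [MulAction G X] {R : X → X → Prop} {k l : ℕ}
    (h : R3 G X R k l) (h3 : 3 ≤ k + l) : ∃ d, NDeg G d ∧ k + l ≤ 2 * d := by
  have hfin : Finite X := by
    by_contra hcon
    rw [not_finite_iff_infinite] at hcon
    have h1 := h.cardn
    rw [Nat.card_eq_zero_of_infinite] at h1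
    omega
  classical
  have := Fintype.ofFinite X
  obtain ⟨χ₁, χ₂, f, g, D, hf, hg, -, hfg, -⟩ := h.frame
  have hdf : charDegree (χ₁ : G → ℂ) = f := Cfsg.Agent.Blocks.Basic.charDegree_of_eq hf
  have hdg : charDegree (χ₂ : G → ℂ) = g := Cfsg.Agent.Blocks.Basic.charDegree_of_eq hg
  rcases le_total f g with hle | hle
  · exact ⟨_, ndeg_of_ne (χ := χ₂) (by rw [hdg]; omega), by rw [hdg]; omega⟩
  · exact ⟨_, ndeg_of_ne (χ := χ₁) (by rw [hdf]; omega), by rw [hdf]; omega⟩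

theorem exists_of_index {G : Type*} [Group G] [Finite G] (H : Subgroup G) {k l : ℕ} (hi : H.index = 1 + k + l)
    (ho : ∃ q₁ q₂ : G ⧸ H, (MulAction.orbit H q₁).ncard = k ∧ (MulAction.orbit H q₂).ncard = l)
    (hk : 1 < k) (hl : 1 < l) (hkl : k ≠ l) : ∃ d, NDeg G d ∧ k + l ≤ 2 * d := by
  obtain ⟨q₁, q₂, h1, h2⟩ := ho
  obtain ⟨R, h⟩ := R3.of_index H hi h1 h2 hk hl hkl
  exact exists_of_r3 h (by omega)

theorem m12 {S : Type u} [Group S] (h : Spor.IsoM12 S) : ∃ d, NDeg S d ∧ 33 ≤ d := by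
  have hc := NotCT.Orders.m12 h
  obtain ⟨e⟩ := h
  have e' := e.trans Cfsg.Agent.CoThreeStd.M12.equiv
  have : Finite ↥Cfsg.Agent.CoThreeStd.M12.G12 := Nat.finite_of_card_ne_zero (by
    rw [← Nat.card_congr e'.toEquiv, hc]; norm_num)
  obtain ⟨d, h1, h2⟩ := exists_of_r3 MTwelve.r3 (by norm_num)
  exact ⟨d, NDeg.congr e' h1, by omega⟩

theorem j2 {S : Type u} [Group S] (h : Spor.IsoJ2 S) : ∃ d, NDeg S d ∧ 50 ≤ d := by
  have hc := NotCT.Orders.j2 h
  obtain ⟨e⟩ := h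
  have : Finite Spor.J2 := Nat.finite_of_card_ne_zero (by rw [← Nat.card_congr e.toEquiv, hc]; norm_num)
  obtain ⟨H, hi, -, ho⟩ := Cfsg.Agent.S1624.result
  obtain ⟨d, h1, h2⟩ := exists_of_index H (k := 36) (l := 63) hi ho (by norm_num) (by norm_num) (by norm_num)
  exact ⟨d, NDeg.congr e h1, by omega⟩

theorem suz {S : Type u} [Group S] (h : Spor.IsoSuz S) : ∃ d, NDeg S d ∧ 891 ≤ d := by
  have hc := NotCT.Orders.suz h
  obtain ⟨e⟩ := h
  have : Finite Spor.Suz := Nat.finite_of_card_ne_zero (by rw [← Nat.card_congr e.toEquiv, hc]; norm_num)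
  obtain ⟨hi, ho⟩ := Cfsg.Agent.S1680.result
  obtain ⟨d, h1, h2⟩ := exists_of_index _ (k := 416) (l := 1365) hi ho (by norm_num) (by norm_num) (by norm_num)
  exact ⟨d, NDeg.congr e h1, by omega⟩

theorem fi22 {S : Type u} [Group S] (h : Spor.IsoFi22 S) : ∃ d, NDeg S d ∧ 1755 ≤ d := by
  have hc := NotCT.Orders.fi22 h
  obtain ⟨e⟩ := h
  have : Finite Spor.Fi22 := Nat.finite_of_card_ne_zero (by rw [← Nat.card_congr e.toEquiv, hc]; norm_num)
  obtain ⟨hi, ho⟩ := Cfsg.Agent.S1687.result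
  obtain ⟨d, h1, h2⟩ := exists_of_index _ (k := 693) (l := 2816) hi ho (by norm_num) (by norm_num) (by norm_num)
  exact ⟨d, NDeg.congr e h1, by omega⟩

theorem tits {S : Type u} [Group S] (h : Lie.IsoTits S) : ∃ d, NDeg S d ∧ 2048 ≤ d := by
  obtain ⟨d, ⟨χ, hχ⟩, hd⟩ := Cfsg.Agent.H221.TwFSplit.exists_tits h
  refine ⟨charDegree (χ : S → ℂ), ndeg_of_ne ?_, ?_⟩
  · rcases hd with rfl | rfl <;> rw [hχ] <;> norm_num
  · rcases hd with rfl | rfl <;> rw [hχ] <;> norm_num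

/-- Feit-Thompson: `(p - 1) / 2 ≤ χ(1)` -/
theorem le_ndeg {S : Type u} [Group S] [Finite S] [IsSimpleGroup S] (p : ℕ) (hp : p.Prime) (h1 : p ∣ Nat.card S)
    (h2 : ¬ p ^ 2 ∣ Nat.card S) (h3 : Nat.card S ≠ p) {d : ℕ} (hd : NDeg S d) : p ≤ 2 * d + 1 := by
  obtain ⟨χ, hχ, rfl⟩ := hd
  refine Cfsg.Agent.S4503.result p hp h1 h2 ?_ (χ : S → ℂ) (isIrr_isCharacter χ.2) ?_
  · intro H hH hc
    rcases hH.eq_bot_or_eq_top with rfl | rfl
    · rw [Subgroup.card_bot] at hc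
      exact hp.one_lt.ne hc
    · rw [Subgroup.card_top] at hc
      exact h3 hc
  · intro g hg
    have h4 := H495.Cod.card_ker_simple χ hχ
    have h5 : Subsingleton {g : S // (χ : S → ℂ) g = (χ : S → ℂ) 1} := (Nat.card_eq_one_iff_unique.1 h4).1
    exact congrArg Subtype.val (Subsingleton.elim (⟨g, hg⟩ : {g : S // (χ : S → ℂ) g = (χ : S → ℂ) 1}) ⟨1, rfl⟩)

end Cfsg.Agent.H635.Cod
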