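import Cfsg.Agent.H635.Cod.SporLie
import Cfsg.Agent.H352.Cd.Alt

/-!
# S4795, numbers: T-F `alt_num`, T-H1 `lie_spor`, T-H2 `alt_spor` (helper635)
-/

set_option autoImplicit false
set_option exponentiation.threshold 1000

namespace Cfsg.Agent.H635.Cod

open Cfsg.Agent.H902.Art Cfsg.Agent.H66.Cod Finset Cfsg.Agent.H352.Cd

/-! ### T-H2 -/

/-- the test -/
def testH2 (N m : ℕ) : Bool :=
  cond (Nat.beq (Nat.mod (Nat.mul 2 N) m.factorial) 0)
    (cond (Nat.ble (Nat.mul m.factorial m.factorial) (Nat.mul (Nat.mul 2 N) (Nat.mul 2 (Nat.pow (Nat.sub m 1) 2)))) true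
      (cond (Nat.ble (Nat.mul m.factorial (Nat.pow 2 (Nat.sub m 2))) (Nat.mul 2 N)) true
        (or (or (and (Nat.beq m 8) (Nat.beq (Nat.mul 2 N) (Nat.mul 22 m.factorial)))
          (and (Nat.beq m 8) (Nat.beq (Nat.mul 2 N) (Nat.mul 30 m.factorial))))
          (or (and (Nat.beq m 11) (Nat.beq (Nat.mul 2 N) (Nat.mul 45 m.factorial)))
          (and (Nat.beq m 13) (Nat.beq (Nat.mul 2 N) (Nat.mul 144 m.factorial))))))) true

set_option maxRecDepth 100000 in
theorem allH2 : (sporList.all fun N => (List.range 60).all fun m => cond (Nat.ble m 4) true (testH2 N m)) = true := by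
  decide +kernel

theorem lt_fact60 : ∀ N ∈ sporList, 2 * N < Nat.factorial 60 := by decide +kernel

/-- **T-H2** -/
theorem alt_spor {N m k : ℕ} (hN : N ∈ sporList) (hm : 5 ≤ m) (hk : 2 * N = k * m.factorial)
    (hlt : k * (2 * (m - 1) ^ 2) < m.factorial) (hk2 : k < 2 ^ (m - 2)) :
    (m = 8 ∧ k = 22) ∨ (m = 8 ∧ k = 30) ∨ (m = 11 ∧ k = 45) ∨ (m = 13 ∧ k = 144) := by
  have hN0 : N ≠ 0 := by
    have h1 : ∀ N ∈ sporList, N ≠ 0 := by decide
    exact h1 N hN
  have hF0 : 0 < m.factorial := Nat.factorial_pos m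
  have hk0 : k ≠ 0 := by
    rintro rfl
    rw [zero_mul] at hk
    omega
  have hm60 : m < 60 := by
    by_contra hcon
    have h1 := Nat.factorial_le (show 60 ≤ m by omega)
    have h2 := lt_fact60 N hN
    have h3 : m.factorial ≤ 2 * N := by
      rw [hk]
      exact Nat.le_mul_of_pos_left _ (Nat.pos_of_ne_zero hk0)
    exact absurd (lt_of_lt_of_le h2 (h1.trans h3)) (lt_irrefl _)
  have h1 := allH2
  rw [List.all_eq_true] at h1
  have h2 := h1 N hN
  rw [List.all_eq_true] at h2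
  have h3 := h2 m (List.mem_range.2 hm60)
  have e0 : Nat.ble m 4 = false := by
    rw [← Bool.not_eq_true, Nat.ble_eq]
    omega
  rw [e0, cond_false] at h3
  unfold testH2 at h3
  have e1 : Nat.beq (Nat.mod (Nat.mul 2 N) m.factorial) 0 = true := by
    rw [Nat.beq_eq]
    exact Nat.mod_eq_zero_of_dvd ⟨k, by rw [mul_comm]; exact hk⟩
  have e2 : Nat.ble (Nat.mul m.factorial m.factorial) (Nat.mul (Nat.mul 2 N) (Nat.mul 2 (Nat.pow (Nat.sub m 1) 2))) =
      false := by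
    rw [← Bool.not_eq_true, Nat.ble_eq, not_le]
    show 2 * N * (2 * (m - 1) ^ 2) < m.factorial * m.factorial
    rw [hk]
    calc k * m.factorial * (2 * (m - 1) ^ 2) = k * (2 * (m - 1) ^ 2) * m.factorial := by ring
      _ < _ := Nat.mul_lt_mul_of_pos_right hlt hF0
  have e3 : Nat.ble (Nat.mul m.factorial (Nat.pow 2 (Nat.sub m 2))) (Nat.mul 2 N) = false := by
    rw [← Bool.not_eq_true, Nat.ble_eq, not_le]
    show 2 * N < m.factorial * 2 ^ (m - 2)
    rw [hk, mul_comm]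
    exact Nat.mul_lt_mul_of_pos_left hk2 hF0
  rw [e1, cond_true, e2, cond_false, e3, cond_false] at h3
  simp only [Bool.or_eq_true, Bool.and_eq_true, Nat.beq_eq] at h3
  have hc : ∀ {c : ℕ}, Nat.mul 2 N = Nat.mul c m.factorial → k = c := fun h =>
    Nat.eq_of_mul_eq_mul_right hF0 (hk.symm.trans h)
  rcases h3 with (⟨h4, h5⟩ | ⟨h4, h5⟩) | ⟨h4, h5⟩ | ⟨h4, h5⟩
  · exact Or.inl ⟨h4, hc h5⟩
  · exact Or.inr (Or.inl ⟨h4, hc h5⟩)
  · exact Or.inr (Or.inr (Or.inl ⟨h4, hc h5⟩))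
  · exact Or.inr (Or.inr (Or.inr ⟨h4, hc h5⟩))

/-! ### T-H1 -/

/-- the shapes with `NN X ≤ 92` -/
def TLB : List Sh :=
  ((List.range 13).map fun i => Sh.L (i + 2)) ++ ((List.range 8).map fun i => Sh.C (i + 2)) ++
  ((List.range 12).map fun i => Sh.U (i + 3)) ++ ((List.range 7).map fun i => Sh.D (i + 4)) ++
  ((List.range 7).map fun i => Sh.DD (i + 4)) ++ [.G2, .F4, .E6, .E7, .TE6, .TD4, .Sz, .Ree, .TF4]

theorem tri_le' {n : ℕ} (h : n * (n - 1) / 2 ≤ 92) : n ≤ 14 := by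
  by_contra hcon
  have h3 : 15 * 14 ≤ n * (n - 1) := Nat.mul_le_mul (by omega) (by omega)
  have h4 : 105 ≤ n * (n - 1) / 2 := by
    rw [Nat.le_div_iff_mul_le (by norm_num)]
    omega
  omega

theorem sq_le' {n : ℕ} (h : n ^ 2 ≤ 92) : n ≤ 9 := by
  by_contra hcon
  have h3 : 10 ^ 2 ≤ n ^ 2 := Nat.pow_le_pow_left (by omega) 2
  omega

theorem rect_le' {n : ℕ} (h : n * (n - 1) ≤ 92) : n ≤ 10 := by
  by_contra hcon
  have h3 : 11 * 10 ≤ n * (n - 1) := Nat.mul_le_mul (by omega) (by omega)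
  omega

theorem mem_TLB {X : Sh} {p f N : ℕ} (hX : Real X p f N) (h : NN X ≤ 92) : X ∈ TLB := by
  have hok := hX.ok
  unfold TLB
  simp only [List.mem_append, List.mem_map, List.mem_range, List.mem_cons, List.not_mem_nil, or_false]
  cases X with
  | L n =>
    have h1 := tri_le' h
    have h2 : 2 ≤ n := hok.1
    exact Or.inl (Or.inl (Or.inl (Or.inl (Or.inl ⟨n - 2, by omega, by congr 1; omega⟩))))
  | C n =>
    have h1 := sq_le' h
    have h2 : 2 ≤ n := hok.1
    exact Or.inl (Or.inl (Or.inl (Or.inl (Or.inr ⟨n - 2, by omega, by congr 1; omega⟩))))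
  | U n =>
    have h1 := tri_le' h
    have h2 : 3 ≤ n := hok.1
    exact Or.inl (Or.inl (Or.inl (Or.inr ⟨n - 3, by omega, by congr 1; omega⟩)))
  | D n =>
    have h1 := rect_le' h
    have h2 : 4 ≤ n := hok
    exact Or.inl (Or.inl (Or.inr ⟨n - 4, by omega, by congr 1; omega⟩))
  | DD n =>
    have h1 := rect_le' h
    have h2 : 4 ≤ n := hok
    exact Or.inl (Or.inr ⟨n - 4, by omega, by congr 1; omega⟩)
  | E8 => exact absurd h (by decide)
  | _ => simp

/-- the test: `T = d M` is the order (times `d`), `Q` the `r`-part -/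
def testH1 (N T d Q : ℕ) : Bool :=
  cond (Nat.beq (Nat.mod (Nat.mul d N) T) 0)
    (Nat.ble (Nat.mul T T) (Nat.mul (Nat.mul (Nat.mul d d) N) (Nat.mul Q Q))) true

set_option maxRecDepth 100000 in
theorem allH1 : (sporList.all fun N => PL.all fun r => cond (Nat.beq (Nat.mod N r) 0)
    (TLB.all fun X => (List.range (Nat.div 46 (NN X))).all fun i =>
      cond (Nat.beq (Nat.mod N (Nat.pow r (Nat.mul (Nat.succ i) (NN X)))) 0)
        (cond (okA X r (Nat.succ i))
          (testH1 N (TA X (Nat.pow r (Nat.succ i))) (dd X (Nat.pow r (Nat.succ i)))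
            (Nat.pow r (Nat.mul (Nat.succ i) (NN X)))) true) true) true) = true := by
  decide +kernel

theorem not_pow47 : ∀ N ∈ sporList, ∀ r ∈ PL, ¬ r ^ 47 ∣ N := by
  decide +kernel

/-- **T-H1** -/
theorem lie_spor {Y : Cfsg.Agent.H902.Art.Sh} {r g N M k : ℕ} (hY : Cfsg.Agent.H902.Art.Real Y r g M)
    (hN : N ∈ sporList) (hk : N = k * M) (hlt : k * Cfsg.Agent.H902.Art.P r M ^ 2 < M) : False := by
  have hr := hY.hp
  have hg := hY.hf
  have hM0 : M ≠ 0 := hY.M_ne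
  have hd0 : 0 < dd Y (r ^ g) := Nat.pos_of_ne_zero hY.dd_ne
  have hMN : M ∣ N := ⟨k, by rw [mul_comm]; exact hk⟩
  have hP : r ^ (g * NN Y) = P r M := by rw [hY.P_self, pow_mul]
  have hPN : r ^ (g * NN Y) ∣ N := by
    rw [hP]
    exact (P_dvd r M).trans hMN
  have hNN := NN_pos hY
  have hpos : 1 ≤ g * NN Y := Nat.mul_pos hg hNN
  have hrN : r ∣ N := (dvd_pow_self r (by omega)).trans hPN
  have hrP : r ∈ PL := mem_PL hr hN hrN
  have h46 : g * NN Y ≤ 46 := by
    by_contra hcon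
    exact not_pow47 N hN r hrP ((pow_dvd_pow r (by omega)).trans hPN)
  have hN46 : NN Y ≤ 46 := by nlinarith
  have h1 := allH1
  rw [List.all_eq_true] at h1
  have h2 := h1 N hN
  rw [List.all_eq_true] at h2
  have h3 := h2 r hrP
  have e1 : Nat.beq (Nat.mod N r) 0 = true := by
    rw [Nat.beq_eq]
    exact Nat.mod_eq_zero_of_dvd hrN
  rw [e1, cond_true, List.all_eq_true] at h3
  have h4 := h3 Y (mem_TLB hY (by omega))
  rw [List.all_eq_true] at h4
  have h5 := h4 (g - 1) (by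
    rw [List.mem_range]
    have : g ≤ 46 / NN Y := by
      rw [Nat.le_div_iff_mul_le (by omega)]
      omega
    show g - 1 < 46 / NN Y
    omega)
  have e2 : Nat.succ (g - 1) = g := by omega
  rw [e2] at h5
  have e3 : Nat.beq (Nat.mod N (Nat.pow r (Nat.mul g (NN Y)))) 0 = true := by
    rw [Nat.beq_eq]
    exact Nat.mod_eq_zero_of_dvd hPN
  rw [e3, cond_true, okA_true hY.ok, cond_true] at h5
  unfold testH1 at h5
  have e4 : TA Y (Nat.pow r g) = dd Y (r ^ g) * M := TA_eq hY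
  have e5 : dd Y (Nat.pow r g) = dd Y (r ^ g) := rfl
  have e6 : Nat.pow r (Nat.mul g (NN Y)) = P r M := hP
  rw [e4, e5, e6] at h5
  set d := dd Y (r ^ g) with hd
  have e7 : Nat.beq (Nat.mod (Nat.mul d N) (d * M)) 0 = true := by
    rw [Nat.beq_eq]
    refine Nat.mod_eq_zero_of_dvd ?_
    exact Nat.mul_dvd_mul_left d hMN
  rw [e7, cond_true, Nat.ble_eq] at h5
  have h6 : d * M * (d * M) ≤ d * d * N * (P r M * P r M) := h5
  rw [hk] at h6
  have h7 : d * d * (k * M) * (P r M * P r M) = d * M * (d * (k * P r M ^ 2)) := by ring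
  rw [h7] at h6
  have h8 : d * M * (d * (k * P r M ^ 2)) < d * M * (d * M) :=
    Nat.mul_lt_mul_of_pos_left (Nat.mul_lt_mul_of_pos_left hlt hd0) (Nat.mul_pos hd0 (Nat.pos_of_ne_zero hM0))
  omega

/-! ### T-F -/

/-- the primes up to `47` -/
def PB : List ℕ := [2, 3, 5, 7, 11, 13, 17, 19, 23, 29, 31, 37, 41, 43, 47]

theorem mem_PB {p : ℕ} (hp : p.Prime) (h : p ≤ 48) : p ∈ PB := by
  have h2 := hp.two_le
  interval_cases p <;> first | (simp [PB]; done) | (exfalso; revert hp; norm_num; done)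

/-- the admissible outcomes -/
def resF (m T2 dF : ℕ) : Bool :=
  or (or (and (Nat.beq m 7) (Nat.beq T2 (Nat.mul dF 8))) (and (Nat.beq m 8) (Nat.beq T2 (Nat.mul dF 1))))
    (or (or (and (Nat.beq m 9) (Nat.beq T2 (Nat.mul dF 8))) (and (Nat.beq m 9) (Nat.beq T2 (Nat.mul dF 18))))
      (and (Nat.beq m 10) (Nat.beq T2 (Nat.mul dF 96))))

/-- the test for `T = d N`, `F = m !` -/
noncomputable def testF (T d m F : ℕ) : Bool :=
  cond (Nat.ble (Nat.mul (Nat.mul d F) (Nat.pow 2 (Nat.sub m 2))) (Nat.mul 2 T)) true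
    (cond (Nat.beq (Nat.mod (Nat.mul 2 T) (Nat.mul d F)) 0)
      (cond (Nat.ble (Nat.mul (Nat.mul d F) F) (Nat.mul (Nat.mul 2 T) (Nat.mul 2 (Nat.pow (Nat.sub m 1) 2)))) true
        (resF m (Nat.mul 2 T) (Nat.mul d F))) true)

/-- the loop -/
noncomputable def goF (T d : ℕ) (n : ℕ) : ℕ → ℕ → Bool :=
  Nat.rec (motive := fun _ => ℕ → ℕ → Bool) (fun _ _ => true)
    (fun _ ih m F => cond (Nat.ble (Nat.succ (Nat.mul 2 T)) (Nat.mul d F)) true
      (and (testF T d m F) (ih (Nat.succ m) (Nat.mul (Nat.succ m) F)))) n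

theorem goF_succ (T d n m F : ℕ) : goF T d (n + 1) m F =
    cond (Nat.ble (Nat.succ (Nat.mul 2 T)) (Nat.mul d F)) true
      (and (testF T d m F) (goF T d n (Nat.succ m) (Nat.mul (Nat.succ m) F))) := rfl

theorem goF_spec {T d : ℕ} {m' : ℕ} (hT : d * m'.factorial ≤ 2 * T) : ∀ (n m F : ℕ), goF T d n m F = true →
    F = m.factorial → m ≤ m' → m' < m + n → testF T d m' m'.factorial = true := by
  intro n
  induction n with
  | zero => intro m F _ _ h1 h2; omega
  | succ n ih =>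
    intro m F h hF h1 h2
    rw [goF_succ] at h
    have h3 : Nat.ble (Nat.succ (Nat.mul 2 T)) (Nat.mul d F) = false := by
      rw [← Bool.not_eq_true, Nat.ble_eq, not_le, hF]
      have h4 : d * m.factorial ≤ d * m'.factorial := Nat.mul_le_mul_left d (Nat.factorial_le h1)
      exact Nat.lt_succ_of_le (h4.trans hT)
    rw [h3, cond_false, Bool.and_eq_true] at h
    rcases Nat.eq_or_lt_of_le h1 with h5 | h5
    · rw [← h5, ← hF]
      exact h.1
    · refine ih (m + 1) _ h.2 ?_ h5 (by omega)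
      rw [hF, Nat.factorial_succ]
      rfl

/-- the enumeration -/
noncomputable def allF : Bool :=
  PB.all fun p => TLB.all fun X => cond (or (decide (X = .L 2)) (decide (X = .L 3))) true
    ((List.range (Nat.div 92 (NN X))).all fun i =>
      cond (Nat.ble (Nat.pow 2 93) (Nat.pow p (Nat.mul (Nat.succ i) (NN X)))) true
        (cond (okA X p (Nat.succ i))
          (goF (TA X (Nat.pow p (Nat.succ i))) (dd X (Nat.pow p (Nat.succ i))) 44 5 120) true))

set_option maxRecDepth 100000 in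
theorem allF_true : allF = true := by
  decide +kernel

theorem grow : ∀ k : ℕ, 2 ^ (13 * (49 + k) - 15) ≤ (49 + k).factorial ^ 3 := by
  intro k
  induction k with
  | zero => decide +kernel
  | succ k ih =>
    rw [← Nat.add_assoc, Nat.factorial_succ, mul_pow]
    have e1 : 13 * (49 + k + 1) - 15 = 13 + (13 * (49 + k) - 15) := by omega
    rw [e1, pow_add]
    refine Nat.mul_le_mul ?_ ih
    calc 2 ^ 13 ≤ 49 ^ 3 := by norm_num
      _ ≤ (49 + k + 1) ^ 3 := Nat.pow_le_pow_left (by omega) 3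

/-- **T-F** -/
theorem alt_num {X : Cfsg.Agent.H902.Art.Sh} {p f N m k : ℕ} (h : Cfsg.Agent.H902.Art.Real X p f N) (hn2 : X ≠ .L 2)
    (hn3 : X ≠ .L 3) (hm : 5 ≤ m) (hpm : p ≤ m) (hk : 2 * N = k * m.factorial)
    (hlt : k * (2 * (m - 1) ^ 2) < m.factorial) (hk2 : k < 2 ^ (m - 2)) : (m = 7 ∧ k = 8) ∨ (m = 8 ∧ k = 1) ∨
      (m = 9 ∧ k = 8) ∨ (m = 9 ∧ k = 18) ∨ (m = 10 ∧ k = 96) := by
  have hp := h.hp
  have hf := h.hf
  have hN0 : N ≠ 0 := h.M_ne
  have hF0 : m.factorial ≠ 0 := Nat.factorial_ne_zero m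
  have hk0 : k ≠ 0 := by
    rintro rfl
    rw [zero_mul] at hk
    omega
  have hNN := NN_pos h
  -- the `p`-part
  have h3' : P p N ≤ k * 2 ^ (m - 1) := by
    have h4 : P p N ≤ P p (2 * N) := P_mono hp (by omega) (Dvd.intro_left 2 rfl)
    rw [hk, P_mul hk0 hF0] at h4
    exact h4.trans (Nat.mul_le_mul (P_le hk0) (P_fact_le hp (show 1 ≤ m by omega)))
  have h3 : P p N < 2 ^ (2 * m - 3) := by
    have e : 2 ^ (2 * m - 3) = 2 ^ (m - 2) * 2 ^ (m - 1) := by rw [← pow_add]; congr 1; omega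
    rw [e]
    exact lt_of_le_of_lt h3' (Nat.mul_lt_mul_of_pos_right hk2 (by positivity))
  -- `m ≤ 48`
  have h4 : m ≤ 48 := by
    by_contra hcon
    obtain ⟨j, rfl⟩ := Nat.exists_eq_add_of_le (show 49 ≤ m by omega)
    have h5 := grow j
    have h6 := h.cube hn2
    have h7 : N ^ 3 ≤ (k * 2 ^ (49 + j - 1)) ^ 8 := h6.trans (Nat.pow_le_pow_left h3' 8)
    have h8 : k ^ 3 * (49 + j).factorial ^ 3 ≤ k ^ 3 * (8 * (k ^ 5 * 2 ^ (8 * (49 + j - 1)))) := by
      calc k ^ 3 * (49 + j).factorial ^ 3 = (2 * N) ^ 3 := by rw [hk]; ring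
        _ = 8 * N ^ 3 := by ring
        _ ≤ 8 * (k * 2 ^ (49 + j - 1)) ^ 8 := Nat.mul_le_mul_left 8 h7
        _ = k ^ 3 * (8 * (k ^ 5 * (2 ^ (49 + j - 1)) ^ 8)) := by ring
        _ = _ := by rw [← pow_mul, mul_comm (49 + j - 1) 8]
    have h9 := Nat.le_of_mul_le_mul_left h8 (pow_pos (Nat.pos_of_ne_zero hk0) 3)
    have h10 : k ^ 5 < (2 ^ (49 + j - 2)) ^ 5 := Nat.pow_lt_pow_left hk2 (by norm_num)
    have h11 : 8 * (k ^ 5 * 2 ^ (8 * (49 + j - 1))) < 2 ^ (13 * (49 + j) - 15) := by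
      have e : 2 ^ (13 * (49 + j) - 15) = 8 * ((2 ^ (49 + j - 2)) ^ 5 * 2 ^ (8 * (49 + j - 1))) := by
        rw [← pow_mul, ← pow_add, show (8 : ℕ) = 2 ^ 3 by norm_num, ← pow_add]
        congr 1
        omega
      rw [e]
      exact Nat.mul_lt_mul_of_pos_left (Nat.mul_lt_mul_of_pos_right h10 (by positivity)) (by norm_num)
    exact absurd (lt_of_le_of_lt (h5.trans h9) h11) (lt_irrefl _)
  have h5 : p ^ (f * NN X) < 2 ^ 93 := by
    rw [pow_mul, ← h.P_self]
    exact lt_of_lt_of_le h3 (Nat.pow_le_pow_right (by norm_num) (by omega))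
  have h6 : f * NN X < 93 := by
    by_contra hcon
    have h9 : 2 ^ 93 ≤ p ^ (f * NN X) :=
      (Nat.pow_le_pow_right (by norm_num) (by omega)).trans (Nat.pow_le_pow_left hp.two_le _)
    exact absurd (lt_of_le_of_lt h9 h5) (lt_irrefl _)
  have h9 : NN X ≤ 92 := by nlinarith
  have h10 := allF_true
  unfold allF at h10
  rw [List.all_eq_true] at h10
  have h12 := h10 p (mem_PB hp (by omega))
  rw [List.all_eq_true] at h12
  have h13 := h12 X (mem_TLB h h9)
  have e0 : or (decide (X = .L 2)) (decide (X = .L 3)) = false := by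
    rw [Bool.or_eq_false_iff]
    exact ⟨decide_eq_false hn2, decide_eq_false hn3⟩
  rw [e0, cond_false, List.all_eq_true] at h13
  have h14 := h13 (f - 1) (by
    rw [List.mem_range]
    have : f ≤ 92 / NN X := by
      rw [Nat.le_div_iff_mul_le (by omega)]
      omega
    show f - 1 < 92 / NN X
    omega)
  have e2 : Nat.succ (f - 1) = f := by omega
  rw [e2] at h14
  have e3 : Nat.ble (Nat.pow 2 93) (Nat.pow p (Nat.mul f (NN X))) = false := by
    rw [← Bool.not_eq_true, Nat.ble_eq]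
    exact Nat.not_le.2 h5
  rw [e3, cond_false, okA_true h.ok, cond_true] at h14
  have e4 : TA X (Nat.pow p f) = dd X (p ^ f) * N := TA_eq h
  have e5 : dd X (Nat.pow p f) = dd X (p ^ f) := rfl
  rw [e4, e5] at h14
  set d := dd X (p ^ f) with hd
  have hd0 : 0 < d := Nat.pos_of_ne_zero h.dd_ne
  have e6 : 2 * (d * N) = d * (k * m.factorial) := by rw [← hk]; ring
  have h15 := goF_spec (T := d * N) (d := d) (m' := m) (by
    rw [e6]
    exact Nat.mul_le_mul_left d (Nat.le_mul_of_pos_left _ (Nat.pos_of_ne_zero hk0))) 44 5 120 h14 rfl hm (by omega)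
  unfold testF at h15
  have e7 : Nat.ble (Nat.mul (Nat.mul d m.factorial) (Nat.pow 2 (Nat.sub m 2))) (Nat.mul 2 (d * N)) = false := by
    rw [← Bool.not_eq_true, Nat.ble_eq, not_le]
    show 2 * (d * N) < d * m.factorial * 2 ^ (m - 2)
    rw [e6]
    have : d * (k * m.factorial) = d * m.factorial * k := by ring
    rw [this]
    exact Nat.mul_lt_mul_of_pos_left hk2 (Nat.mul_pos hd0 (Nat.pos_of_ne_zero hF0))
  have e8 : Nat.beq (Nat.mod (Nat.mul 2 (d * N)) (Nat.mul d m.factorial)) 0 = true := by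
    rw [Nat.beq_eq]
    refine Nat.mod_eq_zero_of_dvd ?_
    show d * m.factorial ∣ 2 * (d * N)
    rw [e6]
    exact Nat.mul_dvd_mul_left d (Dvd.intro_left k rfl)
  have e9 : Nat.ble (Nat.mul (Nat.mul d m.factorial) m.factorial)
      (Nat.mul (Nat.mul 2 (d * N)) (Nat.mul 2 (Nat.pow (Nat.sub m 1) 2))) = false := by
    rw [← Bool.not_eq_true, Nat.ble_eq, not_le]
    show 2 * (d * N) * (2 * (m - 1) ^ 2) < d * m.factorial * m.factorial
    rw [e6]
    have : d * (k * m.factorial) * (2 * (m - 1) ^ 2) = d * m.factorial * (k * (2 * (m - 1) ^ 2)) := by ring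
    rw [this]
    exact Nat.mul_lt_mul_of_pos_left hlt (Nat.mul_pos hd0 (Nat.pos_of_ne_zero hF0))
  rw [e7, cond_false, e8, cond_true, e9, cond_false] at h15
  unfold resF at h15
  simp only [Bool.or_eq_true, Bool.and_eq_true, Nat.beq_eq] at h15
  have hc : ∀ {c : ℕ}, Nat.mul 2 (d * N) = Nat.mul (Nat.mul d m.factorial) c → k = c := by
    intro c h16
    have h17 : 2 * (d * N) = d * m.factorial * c := h16
    rw [e6] at h17
    have h18 : d * m.factorial * k = d * m.factorial * c := by rw [← h17]; ring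
    exact Nat.eq_of_mul_eq_mul_left (Nat.mul_pos hd0 (Nat.pos_of_ne_zero hF0)) h18
  rcases h15 with (⟨h15, h16⟩ | ⟨h15, h16⟩) | (⟨h15, h16⟩ | ⟨h15, h16⟩) | ⟨h15, h16⟩
  · exact Or.inl ⟨h15, hc h16⟩
  · exact Or.inr (Or.inl ⟨h15, hc h16⟩)
  · exact Or.inr (Or.inr (Or.inl ⟨h15, hc h16⟩))
  · exact Or.inr (Or.inr (Or.inr (Or.inl ⟨h15, hc h16⟩)))
  · exact Or.inr (Or.inr (Or.inr (Or.inr ⟨h15, hc h16⟩)))

end Cfsg.Agent.H635.Cod
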