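import Cfsg.Agent.H352.Cd.Spor

/-!
# Codegrees (S4795): the orders of the groups of Lie type which are small multiples of the order of a sporadic group
(helper635)
-/

set_option autoImplicit false
set_option exponentiation.threshold 400

namespace Cfsg.Agent.H635.Cod

open Cfsg.Agent.H902.Art Cfsg.Agent.H66.Cod Finset Cfsg.Agent.H352.Cd

/-- `∏ i < k, (q ^ (2 i + 2) - 1)` -/
noncomputable def prC (q : ℕ) (k : ℕ) : ℕ :=
  Nat.rec (motive := fun _ => ℕ) 1 (fun k ih => Nat.mul ih (Nat.sub (Nat.pow q (Nat.mul 2 (Nat.succ k))) 1)) k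

theorem prC_eq (q k : ℕ) : prC q k = ∏ i ∈ range k, (q ^ (2 * (i + 1)) - 1) := by
  induction k with
  | zero => rfl
  | succ k ih =>
    rw [prod_range_succ, ← ih]
    rfl

/-- the factor of the unitary groups -/
def fU (q i : ℕ) : ℕ :=
  cond (Nat.beq (Nat.mod i 2) 0) (Nat.sub (Nat.pow q (Nat.add i 2)) 1) (Nat.succ (Nat.pow q (Nat.add i 2)))

/-- the product of the unitary groups -/
noncomputable def prU (q : ℕ) (k : ℕ) : ℕ :=
  Nat.rec (motive := fun _ => ℕ) 1 (fun k ih => Nat.mul ih (fU q k)) k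

theorem fU_eq (q i : ℕ) : fU q i = if Even i then q ^ (i + 2) - 1 else q ^ (i + 2) + 1 := by
  unfold fU
  by_cases h : Even i
  · have h1 : Nat.beq (Nat.mod i 2) 0 = true := by
      rw [Nat.beq_eq]
      exact Nat.even_iff.1 h
    rw [h1, cond_true, if_pos h]
    rfl
  · have h1 : Nat.beq (Nat.mod i 2) 0 = false := by
      rw [← Bool.not_eq_true, Nat.beq_eq]
      intro h2
      exact h (Nat.even_iff.2 h2)
    rw [h1, cond_false, if_neg h]
    rfl

theorem prU_eq (q k : ℕ) : prU q k = ∏ i ∈ range k, (if Even i then q ^ (i + 2) - 1 else q ^ (i + 2) + 1) := by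
  induction k with
  | zero => rfl
  | succ k ih =>
    rw [prod_range_succ, ← ih, ← fU_eq]
    rfl

/-- `num` -/
noncomputable def numA : Sh → ℕ → ℕ
  | .L n, q => pr q (n - 1)
  | .C n, q => prC q n
  | .U n, q => prU q (n - 1)
  | .D n, q => Nat.mul (Nat.sub (Nat.pow q n) 1) (prC q (n - 1))
  | .DD n, q => Nat.mul (Nat.succ (Nat.pow q n)) (prC q (n - 1))
  | X, q => num X q

theorem numA_eq (X : Sh) (q : ℕ) : numA X q = num X q := by
  cases X with
  | L n => exact pr_eq _ _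
  | C n => exact prC_eq _ _
  | U n => exact prU_eq _ _
  | D n =>
    show (q ^ n - 1) * prC q (n - 1) = _
    rw [prC_eq]
    rfl
  | DD n =>
    show (q ^ n + 1) * prC q (n - 1) = _
    rw [prC_eq]
    rfl
  | _ => rfl

/-- the order times `dd` -/
noncomputable def TA (X : Sh) (q : ℕ) : ℕ := Nat.mul (Nat.pow q (NN X)) (numA X q)

theorem TA_eq {X : Sh} {p f N : ℕ} (h : Real X p f N) : TA X (p ^ f) = dd X (p ^ f) * N := by
  rw [h.eq, ← numA_eq]
  rfl

/-- the shapes with `NN X ≤ 357`, except `L2`, `L3` -/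
def TLA : List Sh :=
  ((List.range 24).map fun i => Sh.L (i + 4)) ++ ((List.range 17).map fun i => Sh.C (i + 2)) ++
  ((List.range 25).map fun i => Sh.U (i + 3)) ++ ((List.range 16).map fun i => Sh.D (i + 4)) ++
  ((List.range 16).map fun i => Sh.DD (i + 4)) ++ [.G2, .F4, .E6, .E7, .E8, .TE6, .TD4, .Sz, .Ree, .TF4]

theorem tri_le {n : ℕ} (h : n * (n - 1) / 2 ≤ 357) : n ≤ 27 := by
  by_contra hcon
  have h3 : 28 * 27 ≤ n * (n - 1) := Nat.mul_le_mul (by omega) (by omega)
  have h4 : 378 ≤ n * (n - 1) / 2 := by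
    rw [Nat.le_div_iff_mul_le (by norm_num)]
    omega
  omega

theorem sq_le {n : ℕ} (h : n ^ 2 ≤ 357) : n ≤ 18 := by
  by_contra hcon
  have h3 : 19 ^ 2 ≤ n ^ 2 := Nat.pow_le_pow_left (by omega) 2
  omega

theorem rect_le {n : ℕ} (h : n * (n - 1) ≤ 357) : n ≤ 19 := by
  by_contra hcon
  have h3 : 20 * 19 ≤ n * (n - 1) := Nat.mul_le_mul (by omega) (by omega)
  omega

theorem mem_TLA {X : Sh} {p f N : ℕ} (hX : Real X p f N) (hn2 : X ≠ .L 2) (hn3 : X ≠ .L 3) (h : NN X ≤ 357) :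
    X ∈ TLA := by
  have hok := hX.ok
  unfold TLA
  simp only [List.mem_append, List.mem_map, List.mem_range, List.mem_cons, List.not_mem_nil, or_false]
  cases X with
  | L n =>
    have h1 := tri_le h
    have h2 : 2 ≤ n := hok.1
    have h4 : 4 ≤ n := by
      by_contra hcon
      rcases (show n = 2 ∨ n = 3 by omega) with rfl | rfl
      · exact hn2 rfl
      · exact hn3 rfl
    exact Or.inl (Or.inl (Or.inl (Or.inl (Or.inl ⟨n - 4, by omega, by congr 1; omega⟩))))
  | C n =>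
    have h1 := sq_le h
    have h2 : 2 ≤ n := hok.1
    exact Or.inl (Or.inl (Or.inl (Or.inl (Or.inr ⟨n - 2, by omega, by congr 1; omega⟩))))
  | U n =>
    have h1 := tri_le h
    have h2 : 3 ≤ n := hok.1
    exact Or.inl (Or.inl (Or.inl (Or.inr ⟨n - 3, by omega, by congr 1; omega⟩)))
  | D n =>
    have h1 := rect_le h
    have h2 : 4 ≤ n := hok
    exact Or.inl (Or.inl (Or.inr ⟨n - 4, by omega, by congr 1; omega⟩))
  | DD n =>
    have h1 := rect_le h
    have h2 : 4 ≤ n := hok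
    exact Or.inl (Or.inr ⟨n - 4, by omega, by congr 1; omega⟩)
  | _ => simp

/-- the exceptions: `(|S|, |H| / |S|, p, |H|)` -/
def exS : List (ℕ × ℕ × ℕ × ℕ) := [
  (7920, 1728, 2, 13685760), (95040, 144, 2, 13685760), (443520, 20736, 2, 9196830720),
  (604800, 1632, 2, 987033600), (604800, 78336, 2, 47377612800),
  (604800, 288, 2, 174182400), (604800, 416, 2, 251596800), (604800, 24375, 5, 14742000000),
  (448345497600, 2876158692, 3, 1289512799941305139200),
  (64561751654400, 1185415168, 2, 76532479683774853939200),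
  (64561751654400, 1184258341431, 3, 76457792934119864313446400), (17971200, 228480, 2, 4106059776000),
  (17971200, 14, 2, 251596800), (17971200, 275562, 3, 4952179814400)]

/-- the test -/
noncomputable def testA (M T d p : ℕ) : Bool :=
  cond (Nat.beq (Nat.mod T (Nat.mul d M)) 0)
    (cond (Nat.ble (Nat.mul d (Nat.mul M M)) (Nat.mul 4 T)) true
      (exS.any fun x => and (Nat.beq M x.1) (and (Nat.beq p x.2.2.1) (Nat.beq T (Nat.mul d x.2.2.2))))) true

/-- is the parameter admissible -/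
def okA : Sh → ℕ → ℕ → Bool
  | .L 2, p, f => Nat.ble 4 (Nat.pow p f)
  | .C 2, p, f => Nat.ble 3 (Nat.pow p f)
  | .U 3, p, f => Nat.ble 3 (Nat.pow p f)
  | .G2, p, f => Nat.ble 3 (Nat.pow p f)
  | .Sz, p, f => and (Nat.beq p 2) (and (Nat.beq (Nat.mod f 2) 1) (Nat.ble 3 f))
  | .Ree, p, f => and (Nat.beq p 3) (and (Nat.beq (Nat.mod f 2) 1) (Nat.ble 3 f))
  | .TF4, p, f => and (Nat.beq p 2) (and (Nat.beq (Nat.mod f 2) 1) (Nat.ble 3 f))
  | _, _, _ => true

theorem okA_true {X : Sh} {p f : ℕ} (h : Ok X p f) : okA X p f = true := by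
  unfold okA
  split
  · rw [Nat.ble_eq]; exact h.2 rfl
  · rw [Nat.ble_eq]; exact h.2 rfl
  · rw [Nat.ble_eq]; exact h.2 rfl
  · rw [Nat.ble_eq]; exact h
  · obtain ⟨h1, h2, h3⟩ := h
    rw [Bool.and_eq_true, Bool.and_eq_true, Nat.beq_eq, Nat.beq_eq, Nat.ble_eq]
    exact ⟨h1, Nat.odd_iff.1 h2, h3⟩
  · obtain ⟨h1, h2, h3⟩ := h
    rw [Bool.and_eq_true, Bool.and_eq_true, Nat.beq_eq, Nat.beq_eq, Nat.ble_eq]
    exact ⟨h1, Nat.odd_iff.1 h2, h3⟩
  · obtain ⟨h1, h2, h3⟩ := h
    rw [Bool.and_eq_true, Bool.and_eq_true, Nat.beq_eq, Nat.beq_eq, Nat.ble_eq]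
    exact ⟨h1, Nat.odd_iff.1 h2, h3⟩
  · rfl

/-- the enumeration -/
noncomputable def allA : Bool :=
  sporList.all fun M => PL.all fun p => cond (Nat.beq (Nat.mod M p) 0)
    (TLA.all fun X => (List.range (Nat.div 357 (NN X))).all fun i =>
      cond (Nat.ble (Nat.mul M M) (Nat.pow p (Nat.mul (Nat.succ i) (NN X)))) true
        (cond (okA X p (Nat.succ i))
          (testA M (TA X (Nat.pow p (Nat.succ i))) (dd X (Nat.pow p (Nat.succ i))) p) true)) true

set_option maxRecDepth 100000 in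
theorem allA_true : allA = true := by
  decide +kernel

theorem spor_lie_num {X : Cfsg.Agent.H902.Art.Sh} {p f k N M : ℕ}
    (h : Cfsg.Agent.H902.Art.Real X p f N) (hn2 : X ≠ .L 2) (hn3 : X ≠ .L 3)
    (hM : M ∈ Cfsg.Agent.H66.Cod.sporList) (hpM : p ∣ M) (hk : N = k * M)
    (h4 : 4 * k < M) : ∃ x ∈ exS, M = x.1 ∧ p = x.2.2.1 ∧ N = x.2.2.2 := by
  have hp := h.hp
  have hf := h.hf
  have hM0 : 0 < M := by omega
  have hN0 : 0 < N := Nat.pos_of_ne_zero h.M_ne
  have hdN : dd X (p ^ f) ≠ 0 := h.dd_ne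
  -- the `p`-part
  have h5 : (p ^ f) ^ NN X ≤ N := by
    rw [← h.P_self]
    exact P_le h.M_ne
  have h6 : 4 * N < M * M := by
    rw [hk, ← mul_assoc]
    exact Nat.mul_lt_mul_of_pos_right h4 hM0
  have h7' : 4 * p ^ (f * NN X) < M * M := by
    rw [pow_mul]
    omega
  have h7 : p ^ (f * NN X) < M * M := by omega
  have h8 : f * NN X < 358 := by
    by_contra hcon
    have h9 : 2 ^ 358 ≤ p ^ (f * NN X) :=
      (Nat.pow_le_pow_right (by norm_num) (by omega)).trans (Nat.pow_le_pow_left hp.two_le _)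
    have h10 := lt_spor M hM
    have h11 := Nat.mul_le_mul_left 4 h9
    exact absurd (lt_of_le_of_lt h11 (h7'.trans h10)) (lt_irrefl _)
  have hNN := NN_pos h
  have h9 : NN X ≤ 357 := by nlinarith
  -- the check
  have h10 := allA_true
  unfold allA at h10
  rw [List.all_eq_true] at h10
  have h11 := h10 M hM
  rw [List.all_eq_true] at h11
  have h12 := h11 p (mem_PL hp hM hpM)
  have e1 : Nat.beq (Nat.mod M p) 0 = true := by
    rw [Nat.beq_eq]
    exact Nat.mod_eq_zero_of_dvd hpM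
  rw [e1, cond_true, List.all_eq_true] at h12
  have h13 := h12 X (mem_TLA h hn2 hn3 h9)
  rw [List.all_eq_true] at h13
  have h14 := h13 (f - 1) (by
    rw [List.mem_range]
    have : f ≤ 357 / NN X := by
      rw [Nat.le_div_iff_mul_le (by omega)]
      omega
    show f - 1 < 357 / NN X
    omega)
  have e2 : Nat.succ (f - 1) = f := by omega
  rw [e2] at h14
  have e3 : Nat.ble (Nat.mul M M) (Nat.pow p (Nat.mul f (NN X))) = false := by
    rw [← Bool.not_eq_true, Nat.ble_eq]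
    exact Nat.not_le.2 h7
  rw [e3, cond_false, okA_true h.ok, cond_true] at h14
  unfold testA at h14
  have e4 : TA X (Nat.pow p f) = dd X (p ^ f) * N := TA_eq h
  have e5 : dd X (Nat.pow p f) = dd X (p ^ f) := rfl
  rw [e4, e5] at h14
  set d := dd X (p ^ f) with hd
  have e6 : Nat.beq (Nat.mod (d * N) (Nat.mul d M)) 0 = true := by
    rw [Nat.beq_eq]
    refine Nat.mod_eq_zero_of_dvd ?_
    show d * M ∣ d * N
    rw [hk]
    exact Nat.mul_dvd_mul_left d (Dvd.intro_left k rfl)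
  have e7 : Nat.ble (Nat.mul d (Nat.mul M M)) (Nat.mul 4 (d * N)) = false := by
    rw [← Bool.not_eq_true, Nat.ble_eq, not_le]
    show 4 * (d * N) < d * (M * M)
    have : 4 * (d * N) = d * (4 * N) := by ring
    rw [this]
    exact Nat.mul_lt_mul_of_pos_left h6 (Nat.pos_of_ne_zero hdN)
  rw [e6, cond_true, e7, cond_false, List.any_eq_true] at h14
  obtain ⟨x, hx, hxe⟩ := h14
  rw [Bool.and_eq_true, Bool.and_eq_true, Nat.beq_eq, Nat.beq_eq, Nat.beq_eq] at hxe
  exact ⟨x, hx, hxe.1, hxe.2.1, Nat.eq_of_mul_eq_mul_left (Nat.pos_of_ne_zero hdN) hxe.2.2⟩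

end Cfsg.Agent.H635.Cod
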