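import Cfsg.Agent.H635.Cod.Deg
import Cfsg.Agent.H635.Cod.SporLie
import Cfsg.Agent.H495.Cod.Simple

/-!
# S4795, T-G: `cod(S) ⊆ cod(H)`, `S` sporadic or the Tits group, `H` of Lie type (helper635)
-/

set_option autoImplicit false

universe u v

namespace Cfsg.Agent.H635.Cod

open Cfsg Cfsg.Agent.H902 Cfsg.Agent.H66.Cod

theorem exS_eq : ∀ x ∈ exS, x.2.2.2 = x.2.1 * x.1 ∧ x.1 ≠ 0 := by decide

theorem kill_of {S : Type u} {H : Type v} [Group S] [Group H] [Finite S] [Finite H] [IsSimpleGroup S]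
    [IsSimpleGroup H] {k : ℕ} (h : Cov S H k) (hL : ¬ ∀ a b : H, a * b = b * a) {x : ℕ × ℕ × ℕ × ℕ} (hx : x ∈ exS)
    (h1 : Nat.card S = x.1) (h2 : Nat.card H = x.2.2.2) {n : ℕ} (hn : Nat.card S = n) {d D : ℕ} (hd : NDeg S d)
    (hD : D ≤ d) (hk : ∀ x ∈ exS, x.1 = n → x.1 ≤ x.2.1 * D ^ 2) : False := by
  have h3 := exS_eq x hx
  have hkx : k = x.2.1 := by
    have h4 := h.card
    rw [h2, h1, h3.1] at h4
    exact (Nat.eq_of_mul_eq_mul_right (Nat.pos_of_ne_zero h3.2) h4).symm
  have h4 := h.lt hL hd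
  rw [hkx, h1] at h4
  have h5 := hk x hx (h1.symm.trans hn)
  have h6 : x.2.1 * D ^ 2 ≤ x.2.1 * d ^ 2 := Nat.mul_le_mul_left _ (Nat.pow_le_pow_left hD 2)
  omega

/-- **T-G.** -/
theorem spor_lie {S : Type u} {H : Type v} [Group S] [Group H] [Finite S] [Finite H] [IsSimpleGroup S]
    [IsSimpleGroup H] (hS : Lie.IsoTits S ∨ IsSporadicGroup S) {k : ℕ} (h : Cov S H k) {X : Art.Sh} {p f : ℕ}
    (hX : Art.Real X p f (Nat.card H)) (h2 : X ≠ .L 2) (h3 : X ≠ .L 3) (hp : p ∣ Nat.card S) : False := by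
  have hM := H495.Cod.spor_card hS
  have hnp : ∀ M ∈ sporList, ¬ M.Prime := by
    intro M hM hpr
    have h1 : ∀ M ∈ sporList, M % 2 = 0 ∧ M ≠ 2 := by decide
    obtain ⟨h4, h5⟩ := h1 M hM
    rcases hpr.eq_two_or_odd with h6 | h6 <;> omega
  have hL : ¬ ∀ a b : H, a * b = b * a := by
    intro hab
    let _ : CommGroup H := { (inferInstance : Group H) with mul_comm := hab }
    have h4 : (Nat.card H).Prime := IsSimpleGroup.prime_card
    rw [h.card] at h4
    rcases Nat.prime_mul_iff.1 h4 with ⟨-, h5⟩ | ⟨h5, -⟩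
    · have : Nontrivial S := inferInstance
      have h6 := Finite.one_lt_card (α := S)
      omega
    · exact hnp _ hM h5
  have hSna : ¬ ∀ a b : S, a * b = b * a := by
    intro hab
    let _ : CommGroup S := { (inferInstance : Group S) with mul_comm := hab }
    exact hnp _ hM IsSimpleGroup.prime_card
  have h4k : 4 * k < Nat.card S := by
    obtain ⟨d, hd⟩ := exists_ndeg (K := S)
    have h5 := h.lt hL hd
    have h6 := (NDeg.facts hSna hd).1
    have h7 : k * 2 ^ 2 ≤ k * d ^ 2 := Nat.mul_le_mul_left _ (Nat.pow_le_pow_left h6 2)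
    omega
  obtain ⟨x, hx, e1, -, e3⟩ := spor_lie_num hX h2 h3 hM hp h.card h4k
  have triv : ∀ {n : ℕ}, Nat.card S = n → (∀ x ∈ exS, x.1 ≠ n) → False := fun hn hne => hne x hx (e1.symm.trans hn)
  have kill : ∀ {n d D : ℕ}, Nat.card S = n → NDeg S d → D ≤ d → (∀ x ∈ exS, x.1 = n → x.1 ≤ x.2.1 * D ^ 2) → False :=
    fun hn hd hD hk => kill_of h hL hx e1 e3 hn hd hD hk
  rcases hS with hS | hS
  · obtain ⟨d, h5, h6⟩ := tits hS
    exact kill (NotCT.Orders.tits hS) h5 h6 (by decide)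
  · obtain ⟨d₀, hd₀⟩ := exists_ndeg (K := S)
    rcases hS with hS | hS | hS | hS | hS | hS | hS | hS | hS | hS | hS | hS | hS | hS | hS | hS | hS | hS | hS | hS |
      hS | hS | hS | hS | hS | hS
    · have hn := NotCT.Orders.m11 hS
      have h7 := le_ndeg 11 (by norm_num) (by rw [hn]; norm_num) (by rw [hn]; norm_num) (by rw [hn]; norm_num) hd₀
      exact kill hn hd₀ (show 5 ≤ d₀ by omega) (by decide)
    · obtain ⟨d, h5, h6⟩ := m12 hS
      exact kill (NotCT.Orders.m12 hS) h5 h6 (by decide)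
    · have hn := NotCT.Orders.m22 hS
      have h7 := le_ndeg 11 (by norm_num) (by rw [hn]; norm_num) (by rw [hn]; norm_num) (by rw [hn]; norm_num) hd₀
      exact kill hn hd₀ (show 5 ≤ d₀ by omega) (by decide)
    · exact triv (NotCT.Orders.m23 hS) (by decide)
    · exact triv (NotCT.Orders.m24 hS) (by decide)
    · exact triv (NotCT.Orders.j1 hS) (by decide)
    · obtain ⟨d, h5, h6⟩ := j2 hS
      exact kill (NotCT.Orders.j2 hS) h5 h6 (by decide)
    · exact triv (NotCT.Orders.j3 hS) (by decide)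
    · exact triv (NotCT.Orders.j4 hS) (by decide)
    · exact triv (NotCT.Orders.co1 hS) (by decide)
    · exact triv (NotCT.Orders.co2 hS) (by decide)
    · exact triv (NotCT.Orders.co3 hS) (by decide)
    · exact triv (NotCT.Orders.mcl hS) (by decide)
    · exact triv (NotCT.Orders.hs hS) (by decide)
    · obtain ⟨d, h5, h6⟩ := suz hS
      exact kill (NotCT.Orders.suz hS) h5 h6 (by decide)
    · exact triv (NotCT.Orders.he hS) (by decide)
    · exact triv (NotCT.Orders.ru hS) (by decide)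
    · exact triv (NotCT.Orders.on hS) (by decide)
    · exact triv (NotCT.Orders.ly hS) (by decide)
    · obtain ⟨d, h5, h6⟩ := fi22 hS
      exact kill (NotCT.Orders.fi22 hS) h5 h6 (by decide)
    · exact triv (NotCT.Orders.fi23 hS) (by decide)
    · exact triv (NotCT.Orders.fi24 hS) (by decide)
    · exact triv (NotCT.Orders.hn hS) (by decide)
    · exact triv (NotCT.Orders.th hS) (by decide)
    · exact triv (NotCT.Orders.b hS) (by decide)
    · exact triv (NotCT.Orders.m hS) (by decide)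

end Cfsg.Agent.H635.Cod
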