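import Cfsg.Agent.H635.Cod.Deg
import Cfsg.Agent.H495.Cod.Simple

/-!
# S4795, T-I1: `cd(L3(4))` is not contained in `cd(A8)` (helper635)
-/

set_option autoImplicit false

universe u v

namespace Cfsg.Agent.H635.Cod

open Cfsg Cfsg.Agent.H902 Cfsg.Agent.H66.Cod Cfsg.Agent.Characters.Core Cfsg.Agent.H686.CharKit

/-- **T-I1.** -/
theorem not_cov_l34 {S : Type u} {H : Type v} [Group S] [Group H] [Finite S] [Finite H] [IsSimpleGroup S]
    [IsSimpleGroup H] (hS : OrdDiv.Real (.psl 3 4) S) (hH : OrdDiv.Real (.alt 8) H) : ¬ Cov S H 1 := by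
  intro h
  obtain ⟨F, _, _, hF, ⟨e⟩⟩ := hS
  obtain ⟨e'⟩ := hH
  refine H131.L34Elim.l34_elim hF e fun ψ hψ => ?_
  by_cases hψ1 : ψ = 1
  · exact ⟨1, by simp, by rw [hψ1]; simp⟩
  · have h9 : NDeg H (1 * charDegree ψ) := h.deg _ ⟨⟨ψ, hψ⟩, hψ1, rfl⟩
    rw [one_mul] at h9
    have h10 : H495.Cod.ADeg 8 (charDegree ψ) := NDeg.congr e'.symm h9
    obtain ⟨h10, h11, h12, h13⟩ := h10.facts (by norm_num)
    refine ⟨charDegree ψ, ?_, (charDegree_cast (isIrr_isCharacter hψ)).symm⟩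
    have h14 : ∀ d, H704.IsDeg 8 d → d ∈ [1, 7, 14, 20, 21, 28, 35, 42, 56, 64, 70, 90] := fun d => H704.deg8
    generalize charDegree ψ = d at *
    rcases h13 with h13 | h13
    · have := h14 _ h13
      simp only [List.mem_cons, List.not_mem_nil, or_false] at this ⊢
      omega
    · have := h14 _ h13
      simp only [List.mem_cons, List.not_mem_nil, or_false] at this ⊢
      omega

end Cfsg.Agent.H635.Cod
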